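import Cfsg.Agent.H10.J1.Eight
import Cfsg.Agent.H10.StemEight

/-!
The Schur multiplier of J1 is trivial.
-/

set_option autoImplicit false
set_option linter.style.haveILetI false

namespace Cfsg.Agent.H10.J1

open Cfsg

local notation "𝔞" => toJ mA
local notation "𝔢" => toJ mE1
local notation "𝔣" => toJ mE2
local notation "𝔫" => toJ mN

theorem conj_of_code {A K B : M7} {g k b : Spor.J1} (ha : Rep A g) (hk : Rep K k) (hb : Rep B b)
    (he : mul A K = mul K B) : k⁻¹ * g * k = b :=
  (Rep.conj ha hk hb.spec_ok he).unique hb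

theorem card_factorization_le {p : ℕ} (hp : p.Prime) (h2 : p ≠ 2) :
    (Nat.card Spor.J1).factorization p ≤ 1 := by
  by_contra h
  have hd : p ^ 2 ∣ Nat.card Spor.J1 :=
    (hp.pow_dvd_iff_le_factorization Nat.card_pos.ne').2 (by omega)
  rw [card_J1] at hd
  have hp' : p ∣ 2 * (2 * (2 * (3 * (5 * (7 * (11 * 19)))))) :=
    (dvd_pow_self p two_ne_zero).trans (by simpa using hd)
  simp only [hp.dvd_mul, Nat.prime_dvd_prime_iff_eq hp Nat.prime_two,
    Nat.prime_dvd_prime_iff_eq hp Nat.prime_three,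
    Nat.prime_dvd_prime_iff_eq hp (show (5).Prime by norm_num),
    Nat.prime_dvd_prime_iff_eq hp (show (7).Prime by norm_num),
    Nat.prime_dvd_prime_iff_eq hp (show (11).Prime by norm_num),
    Nat.prime_dvd_prime_iff_eq hp (show (19).Prime by norm_num)] at hp'
  rcases hp' with rfl | rfl | rfl | rfl | rfl | rfl | rfl | rfl
  all_goals first | exact h2 rfl | norm_num at hd

/-- The Schur multiplier of J1 is trivial. -/
theorem mult_J1 : Cfsg.HasCyclicSchurMultiplier ↥Spor.J1 1 := by
  refine Cfsg.Agent.H64.hasCyclicSchurMultiplier_one fun {Γ} _ _ σ hσ p hp => ?_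
  haveI : Fact p.Prime := ⟨hp⟩
  by_cases h2 : p = 2
  · subst h2
    have ra := rep_A
    have r1 := rep_E1
    have r2 := rep_E2
    refine not_two_dvd_ker_of_eight hσ (x := 𝔞) (y := 𝔢) (z := 𝔣) (n := 𝔫)
      ⟨syl, ?_⟩ ((ra.mul r1).unique ((r1.mul ra).cast ?_))
      ((ra.mul r2).unique ((r2.mul ra).cast ?_)) ((r1.mul r2).unique ((r2.mul r1).cast ?_))
      ((r1.mul r1).unique (Rep.one.cast ?_)) ((r2.mul r2).unique (Rep.one.cast ?_))
      (conj_of_code ra rep_N (ra.mul r2) ?_) (conj_of_code r1 rep_N (ra.mul r1) ?_)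
      (conj_of_code r2 rep_N r1 ?_)
    · show Subgroup.closure (Set.range ![𝔞, 𝔢, 𝔣]) = _
      rw [Matrix.range_cons, Matrix.range_cons, Matrix.range_cons, Matrix.range_empty,
        Set.union_empty]
      rfl
    all_goals decide +kernel
  · refine Cfsg.Agent.H64.not_dvd_card_ker_of_isCyclic hσ fun Q => ?_
    have hc : Nat.card Q = p ^ (Nat.card Spor.J1).factorization p := Q.card_eq_multiplicity
    rcases Nat.le_one_iff_eq_zero_or_eq_one.1 (card_factorization_le hp h2) with h | h
    · rw [h, pow_zero] at hc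
      haveI := (Nat.card_eq_one_iff_unique.1 hc).1
      exact isCyclic_of_subsingleton
    · rw [h, pow_one] at hc
      exact isCyclic_of_prime_card hc

end Cfsg.Agent.H10.J1
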